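import Mathlib
import Cfsg.Prelude.Def_Blocks
import Cfsg.Agent.Lib.Helper6.Subsection2

/-!
# Brauer's formula `k(B) = ∑ l(b)` over subsections
-/

set_option autoImplicit false
set_option linter.unusedSectionVars false

namespace Cfsg.Agent.Lib.Helper6

open Cfsg Cfsg.Agent.Lib.Helper2 Cfsg.Agent.Lib.Helper24
open scoped ComplexConjugate Classical

attribute [local instance] irrFintype

section

variable {G : Type*} [Group G] [Fintype G] {H : Subgroup G} [Fintype H] {p : ℕ}
  {M : Ideal AlgInt}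

theorem lift_eq_zero (hp : p.Prime) {x : H} (hx : IsCenOf p x) {f : H → ℂ}
    (hf0 : ∀ c, p ∣ orderOf c → f c = 0) {g z : G} (hz : IsPPart p g z)
    (hne : ¬ IsConj z (x : G)) : lift x f g = 0 := by
  rw [lift, indFun, Finset.sum_eq_zero, mul_zero]
  intro t _
  by_cases hm : t⁻¹ * g * t ∈ H
  · rw [extendByZero_mem H _ hm]
    apply hf0
    by_contra hreg
    apply hne
    set c' : H := ⟨t⁻¹ * g * t, hm⟩ with hc'
    have h1 : IsPPart p ((x : G) * ((x⁻¹ * c' : H) : G)) (x : G) := isPPart_mul hx hreg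
    have h2 : (x : G) * ((x⁻¹ * c' : H) : G) = t⁻¹ * g * t := by
      push_cast
      rw [mul_inv_cancel_left]
    rw [h2] at h1
    have h3 := IsPPart.conj hz t⁻¹
    rw [inv_inv] at h3
    have h4 := IsPPart.unique hp h1 h3
    rw [h4]
    exact isConj_iff.mpr ⟨t⁻¹, by rw [inv_inv]⟩
  · rw [extendByZero_not_mem H _ hm]

theorem lift_regPart_tw (hp : p.Prime) {x : H} (hx : IsCenOf p x) {χ : G → ℂ}
    (hχ : IsClassFunction G χ) {g z : G} (hz : IsPPart p g z) (hc : IsConj z (x : G)) :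
    lift x (regPart p (tw x χ)) g = χ g := by
  obtain ⟨r, hr⟩ := isConj_iff.mp hc
  obtain ⟨y, hzy, hcomm, -, hy⟩ := hz
  have hcm : r * y * r⁻¹ ∈ H := by
    apply hx.le
    rw [Subgroup.mem_centralizer_singleton_iff, ← hr]
    calc r * y * r⁻¹ * (r * z * r⁻¹) = r * (y * z) * r⁻¹ := by group
      _ = r * (z * y) * r⁻¹ := by rw [hcomm.eq]
      _ = r * z * r⁻¹ * (r * y * r⁻¹) := by group
  set c : H := ⟨r * y * r⁻¹, hcm⟩ with hcdef
  have hco : ¬ p ∣ orderOf c := by
    rw [← Subgroup.orderOf_coe]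
    show ¬ p ∣ orderOf (r * y * r⁻¹)
    rw [orderOf_conj_eq]
    exact hy
  have hg : r * g * r⁻¹ = (x : G) * (c : G) := by
    rw [← hr, ← hzy]
    show r * (z * y) * r⁻¹ = r * z * r⁻¹ * (r * y * r⁻¹)
    group
  rw [← isClassFunction_lift x _ g r, hg,
    lift_apply hp hx (isClassFunction_regPart (isClassFunction_tw hx hχ))
      (fun c hc => regPart_of_dvd _ hc) hco, regPart_of_not_dvd _ hco, tw_apply, ← hg, hχ]

theorem classInner_regPart_tw (x : H) (χ : G → ℂ) :
    classInner (regPart p (tw x χ)) (tw x χ) = (Nat.card H : ℂ)⁻¹ *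
      ∑ s : H, if p ∣ orderOf s then 0 else tw x χ s * conj (tw x χ s) := by
  rw [classInner]
  congr 1
  refine Finset.sum_congr rfl fun s _ => ?_
  rw [regPart_apply]
  split_ifs <;> simp

/-- The characters of `H` lying in blocks inducing `B`. -/
def indSet (M : Ideal AlgInt) (H : Subgroup G) (B : Set (IrrCharacter G)) :
    Set (IrrCharacter H) := {ξ | IsInducedBlock M H (blockOf M (ξ : H → ℂ)) B}

theorem sum_indSet [M.IsPrime] (B : Set (IrrCharacter G)) (F : IrrCharacter H → ℂ) :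
    ∑ ξ : IrrCharacter H, (indSet M H B).indicator 1 ξ * F ξ =
      ∑ b ∈ (blocksFinset M H).filter (fun b => IsInducedBlock M H b B),
        ∑ ξ : IrrCharacter H, b.indicator 1 ξ * F ξ :=
  sum_indicator_union (fun b => IsInducedBlock M H b B) F

theorem sum_indSet_compl [M.IsPrime] (B : Set (IrrCharacter G)) (F : IrrCharacter H → ℂ) :
    ∑ ξ : IrrCharacter H, (indSet M H B)ᶜ.indicator 1 ξ * F ξ =
      ∑ b ∈ (blocksFinset M H).filter (fun b => ¬ IsInducedBlock M H b B),
        ∑ ξ : IrrCharacter H, b.indicator 1 ξ * F ξ := by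
  have h : (indSet M H B)ᶜ = {ξ : IrrCharacter H | ¬ IsInducedBlock M H (blockOf M (ξ : H → ℂ)) B} :=
    rfl
  rw [h]
  convert sum_indicator_union (M := M) (fun b => ¬ IsInducedBlock M H b B) F

theorem weakOrth_indSet (hM : IsPModular p M) (B : Set (IrrCharacter G)) :
    WeakOrth p (indSet M H B) := by
  have := IsPModular.isPrime hM
  intro s c hs hc
  rw [sum_indSet]
  refine Finset.sum_eq_zero fun b hb => ?_
  exact weakOrth_block hM (Finset.mem_filter.mp hb).2.1 s c hs hc

theorem bPart_indSet_eq_zero (hM : IsPModular p M) {x : H} (hx : IsCenOf p x)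
    {B : Set (IrrCharacter G)} {χ : IrrCharacter G} (hχ : χ ∉ B) {s : H}
    (hs : ¬ p ∣ orderOf s) : bPart (indSet M H B) (tw x (χ : G → ℂ)) s = 0 := by
  have := IsPModular.isPrime hM
  rw [bPart_apply', sum_indSet]
  refine Finset.sum_eq_zero fun b hb => ?_
  rw [← bPart_apply']
  exact bPart_tw_eq_zero hM hx (Finset.mem_filter.mp hb).2 hχ hs

theorem bPart_indSet_eq (hM : IsPModular p M) {x : H} (hx : IsCenOf p x)
    (hdef : ∀ b : Set (IrrCharacter H), IsPBlock M b → InducedBlockDefined M H b)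
    {B : Set (IrrCharacter G)} (hB : IsPBlock M B) {χ : IrrCharacter G} (hχ : χ ∈ B) {s : H}
    (hs : ¬ p ∣ orderOf s) :
    bPart (indSet M H B) (tw x (χ : G → ℂ)) s = tw x (χ : G → ℂ) s := by
  have := IsPModular.isPrime hM
  have h1 : ∑ ξ : IrrCharacter H, (indSet M H B)ᶜ.indicator 1 ξ *
      (classInner (tw x (χ : G → ℂ)) (ξ : H → ℂ) * (ξ : H → ℂ) s) = 0 := by
    rw [sum_indSet_compl]
    refine Finset.sum_eq_zero fun b hb => ?_
    rw [← bPart_apply']
    obtain ⟨hb1, hb2⟩ := Finset.mem_filter.mp hb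
    obtain ⟨B', hind⟩ := hdef b (mem_blocksFinset.mp hb1)
    apply bPart_tw_eq_zero hM hx hind _ hs
    intro hχ'
    apply hb2
    rw [IsPBlock.eq_of_mem_of_mem hB hind.2.1 hχ hχ']
    exact hind
  have h2 : tw x (χ : G → ℂ) s = ∑ ξ : IrrCharacter H,
      (classInner (tw x (χ : G → ℂ)) (ξ : H → ℂ) * (ξ : H → ℂ) s) := by
    conv_lhs => rw [classFunction_eq_sum (isClassFunction_tw hx (irr_isClassFunction χ.2))]
    simp only [Finset.sum_apply, Pi.smul_apply, smul_eq_mul]
  rw [bPart_apply', h2, ← add_zero (∑ ξ : IrrCharacter H, (indSet M H B).indicator 1 ξ * _), ← h1,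
    ← Finset.sum_add_distrib]
  refine Finset.sum_congr rfl fun ξ _ => ?_
  by_cases h : ξ ∈ indSet M H B
  · rw [Set.indicator_of_mem h,
      Set.indicator_of_notMem (show ξ ∉ (indSet M H B)ᶜ from fun h' => h' h)]
    simp
  · rw [Set.indicator_of_notMem h, Set.indicator_of_mem (show ξ ∈ (indSet M H B)ᶜ from h)]
    simp

/-- The contribution of the section of `x` to `k(B)`. -/
theorem sum_block_section [Fact p.Prime] (hM : IsPModular p M) {x : H} (hx : IsCenOf p x)
    (hdef : ∀ b : Set (IrrCharacter H), IsPBlock M b → InducedBlockDefined M H b)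
    {B : Set (IrrCharacter G)} (hB : IsPBlock M B) :
    ∑ χ : IrrCharacter G, B.indicator 1 χ *
        classInner (regPart p (tw x (χ : G → ℂ))) (tw x (χ : G → ℂ)) =
      ∑ b ∈ (blocksFinset M H).filter (fun b => IsInducedBlock M H b B), (blockRank p b : ℂ) := by
  have := IsPModular.isPrime hM
  have hp : p.Prime := hM.1
  have key := sum_subsection hp hx (weakOrth_indSet hM B) (B := B)
    (fun χ hχ s hs => bPart_indSet_eq_zero hM hx hχ hs)
  have hH : (Nat.card H : ℂ) ≠ 0 := card_subgroup_ne_zero H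
  have h1 : ∑ b ∈ (blocksFinset M H).filter (fun b => IsInducedBlock M H b B), (blockRank p b : ℂ) =
      ∑ ξ : IrrCharacter H, (indSet M H B).indicator 1 ξ *
        classInner (regPart p (ξ : H → ℂ)) (ξ : H → ℂ) := by
    rw [sum_indSet]
    refine Finset.sum_congr rfl fun b hb => ?_
    exact blockRank_eq_sum' hM (Finset.mem_filter.mp hb).2.1
  rw [h1]
  apply mul_left_cancel₀ hH
  rw [← key, Finset.mul_sum]
  refine Finset.sum_congr rfl fun χ _ => ?_
  by_cases hχ : χ ∈ B
  · rw [Set.indicator_of_mem hχ, Pi.one_apply, one_mul, one_mul, classInner_regPart_tw,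
      mul_inv_cancel_left₀ hH]
    refine Finset.sum_congr rfl fun s _ => ?_
    split_ifs with hs
    · rfl
    · rw [bPart_indSet_eq hM hx hdef hB hχ hs]
  · rw [Set.indicator_of_notMem hχ, zero_mul, zero_mul, mul_zero]

end

end Cfsg.Agent.Lib.Helper6
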