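import Mathlib
import Cfsg.Prelude.Def_Blocks
import Cfsg.Agent.Lib.Helper6.Vanish
import Cfsg.Agent.Lib.Helper6.DefectOrder
import Cfsg.Agent.Lib.Helper6.FirstMain
import Cfsg.Agent.Lib.Helper23.Separated

/-!
# Min-max estimates for defects of classes and counting blocks
-/

set_option autoImplicit false
set_option linter.unusedSectionVars false

namespace Cfsg.Agent.Lib.Helper6

open Cfsg Cfsg.Agent.Lib.Helper2
open scoped ComplexConjugate Classical

attribute [local instance] irrFintype

section det

variable {M : Ideal AlgInt} [M.IsPrime]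

/-- If a product of rectangular matrices is congruent to the identity, the inner index type is at
least as large as the outer one. -/
theorem card_le_of_mul_congr_one {n m : Type*} [Fintype n] [Fintype m]
    (W : Matrix n m ℂ) (A : Matrix m n ℂ)
    (hd : ∀ i, MemLocalIdeal M ((W * A) i i - 1))
    (ho : ∀ i j, i ≠ j → MemLocalIdeal M ((W * A) i j)) :
    Fintype.card n ≤ Fintype.card m := by
  have h : ∀ i j, MemLocalIdeal M ((W * A) i j - (1 : Matrix n n ℂ) i j) := by
    intro i j
    rw [Matrix.one_apply]
    split_ifs with hij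
    · rw [hij]; exact hd j
    · rw [sub_zero]; exact ho i j hij
  by_contra hcon
  push Not at hcon
  have h0 : (W * A).det = 0 := by
    rw [Cfsg.Agent.Lib.Helper23.Separated.det_mul_rect]
    refine Finset.sum_eq_zero fun f _ => ?_
    obtain ⟨i, j, hij, hf⟩ := Fintype.exists_ne_map_eq_of_card_lt f hcon
    rw [Matrix.det_zero_of_column_eq hij, mul_zero]
    intro k
    simp [hf]
  have h1 : ∀ i j, MemLocalRing M ((1 : Matrix n n ℂ) i j) := by
    intro i j
    rw [Matrix.one_apply]
    split_ifs
    · exact memLocalRing_one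
    · exact memLocalRing_zero
  have h2 := Cfsg.Agent.Lib.Helper23.Separated.det_congr_mod (M := M) (X := W * A) (Y := 1)
    (fun i j => (memLocalRing_congr (h i j)).mpr (h1 i j)) h1 h
  rw [h0, Matrix.det_one, zero_sub] at h2
  exact not_memLocalIdeal_one (by simpa using MemLocalIdeal.neg h2)

end det

section

variable {G : Type*} [Group G] [Fintype G] {p : ℕ} {M : Ideal AlgInt}

/-- A unit coefficient of the block idempotent bounds the defect of the class from above. -/
theorem factorization_cen_le_of_coef_unit [Fact p.Prime] (hM : IsPModular p M)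
    {B : Set (IrrCharacter G)} (hB : IsPBlock M B) {g : G}
    (hg : ¬ MemLocalIdeal M (coef (B.indicator 1) g)) :
    (Nat.card (cen g)).factorization p ≤ blockDefect p B := by
  have hp : p.Prime := hM.1
  obtain ⟨Q, hQ⟩ := exists_isSylIn p (cen g)
  obtain ⟨D, hD, hQD⟩ := exists_isDefectGroup_ge hM hB hg hQ.isPGroup hQ.le
  have h1 := Subgroup.card_le_of_le hQD
  rw [hQ.card, IsDefectGroup.card_eq hM hB hD] at h1
  exact (Nat.pow_le_pow_iff_right hp.one_lt).mp h1

/-- A unit value of the central character bounds the defect of the class from below. -/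
theorem blockDefect_le_of_centralChar_unit [Fact p.Prime] (hM : IsPModular p M)
    {B : Set (IrrCharacter G)} (hB : IsPBlock M B) {χ : IrrCharacter G} (hχ : χ ∈ B) {g : G}
    (hg : ¬ MemLocalIdeal M (centralChar (χ : G → ℂ) g)) :
    blockDefect p B ≤ (Nat.card (cen g)).factorization p := by
  have := IsPModular.isPrime hM
  have hp : p.Prime := hM.1
  obtain ⟨D₀, hD₀⟩ := exists_isDefectGroup hM hB
  obtain ⟨g₀, hg₀, hS₀⟩ := isDefectGroup_iff.mp hD₀
  obtain ⟨S, hS⟩ := exists_isSylIn p (cen g)
  obtain ⟨t, ht⟩ := exists_le_cj_of_unit hM hB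
    (not_memLocalIdeal_centralChar_of_exists hB ⟨χ, hχ, hg⟩)
    (isDefectClass_iff.mp hg₀).2.1 hS₀.isPGroup hS₀.le hS
  have h1 := Subgroup.card_le_of_le ht
  rw [card_cj, hS.card, IsDefectGroup.card_eq hM hB hD₀] at h1
  exact (Nat.pow_le_pow_iff_right hp.one_lt).mp h1

/-- Counting blocks by classes. -/
theorem card_blocks_le (hM : IsPModular p M) (PB : Set (IrrCharacter G) → Prop)
    (PC : ConjClasses G → Prop)
    (h : ∀ B B' : Set (IrrCharacter G), IsPBlock M B → PB B → IsPBlock M B' → PB B' →
      ∀ χ ∈ B', ∀ C : ConjClasses G, ¬ PC C →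
        MemLocalIdeal M (coef (B.indicator 1) (Quotient.out C) *
          centralChar (χ : G → ℂ) (Quotient.out C))) :
    Nat.card {B : Set (IrrCharacter G) // IsPBlock M B ∧ PB B} ≤
      Nat.card {C : ConjClasses G // PC C} := by
  have := IsPModular.isPrime hM
  have hfin : Finite {B : Set (IrrCharacter G) // IsPBlock M B ∧ PB B} := inferInstance
  let _ := Fintype.ofFinite {B : Set (IrrCharacter G) // IsPBlock M B ∧ PB B}
  rw [Nat.card_eq_fintype_card, Nat.card_eq_fintype_card]
  have hrep : ∀ B : {B : Set (IrrCharacter G) // IsPBlock M B ∧ PB B},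
      ∃ χ : IrrCharacter G, χ ∈ B.1 := fun B => IsPBlock.nonempty B.2.1
  choose rep hrep using hrep
  have key : ∀ B B' : {B : Set (IrrCharacter G) // IsPBlock M B ∧ PB B},
      MemLocalIdeal M (∑ C : {C : ConjClasses G // PC C},
        coef (B.1.indicator 1) (Quotient.out C.1) *
          centralChar (rep B' : G → ℂ) (Quotient.out C.1) - B.1.indicator 1 (rep B')) := by
    intro B B'
    have h1 := om_coef (B.1.indicator 1) (rep B')
    rw [om_eq_sum_classes (irr_isClassFunction (rep B').2) (isClassFunction_coef _)] at h1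
    rw [← h1]
    have h3 : ∑ C : ConjClasses G, coef (B.1.indicator 1) (Quotient.out C) *
        centralChar (rep B' : G → ℂ) (Quotient.out C) =
        ∑ C : {C : ConjClasses G // PC C}, coef (B.1.indicator 1) (Quotient.out C.1) *
          centralChar (rep B' : G → ℂ) (Quotient.out C.1) +
        ∑ C : {C : ConjClasses G // ¬ PC C}, coef (B.1.indicator 1) (Quotient.out C.1) *
          centralChar (rep B' : G → ℂ) (Quotient.out C.1) :=
      (Fintype.sum_subtype_add_sum_subtype PC _).symm
    rw [h3, sub_add_cancel_left]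
    exact MemLocalIdeal.neg (MemLocalIdeal.sum _ fun C _ =>
      h B.1 B'.1 B.2.1 B.2.2 B'.2.1 B'.2.2 (rep B') (hrep B') C.1 C.2)
  apply card_le_of_mul_congr_one (M := M)
    (Matrix.of fun (B : {B : Set (IrrCharacter G) // IsPBlock M B ∧ PB B})
      (C : {C : ConjClasses G // PC C}) => coef (B.1.indicator 1) (Quotient.out C.1))
    (Matrix.of fun (C : {C : ConjClasses G // PC C})
      (B : {B : Set (IrrCharacter G) // IsPBlock M B ∧ PB B}) =>
        centralChar (rep B : G → ℂ) (Quotient.out C.1))
  · intro B
    have h1 := key B B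
    rw [Set.indicator_of_mem (hrep B), Pi.one_apply] at h1
    rw [Matrix.mul_apply]
    exact h1
  · intro B B' hne
    have h1 := key B B'
    rw [Set.indicator_of_notMem, sub_zero] at h1
    · rw [Matrix.mul_apply]
      exact h1
    · intro hmem
      exact hne (Subtype.ext (IsPBlock.eq_of_mem_of_mem B.2.1 B'.2.1 hmem (hrep B')))

end

end Cfsg.Agent.Lib.Helper6
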