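import Mathlib
import Cfsg.Prelude.Def_Blocks
import Cfsg.Agent.Lib.Helper6.BlockOrth
import Cfsg.Agent.Lib.Helper6.SubSum
import Cfsg.Agent.Lib.Helper6.PPart

/-!
# Products of two conjugate involutions and block columns
-/

set_option autoImplicit false

namespace Cfsg.Agent.Lib.Helper6

open Cfsg Cfsg.Agent.Lib.Helper2
open scoped ComplexConjugate Classical

attribute [local instance] irrFintype

section

variable {G : Type*} [Group G] {p : ℕ}

theorem IsPPart.inv {g z : G} (h : IsPPart p g z) : IsPPart p g⁻¹ z⁻¹ := by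
  obtain ⟨y, rfl, hc, ⟨k, hk⟩, hy⟩ := h
  refine ⟨y⁻¹, ?_, hc.inv_inv, ⟨k, by rw [orderOf_inv, hk]⟩, by rw [orderOf_inv]; exact hy⟩
  rw [mul_inv_rev, hc.inv_inv.eq]

theorem isPPart_self (hp : p.Prime) {z : G} (hz : ∃ k : ℕ, orderOf z = p ^ k) : IsPPart p z z :=
  ⟨1, mul_one z, Commute.one_right z, hz, by
    rw [orderOf_one]; exact hp.one_lt.ne' ∘ Nat.dvd_one.mp⟩

theorem mul_self_of_isConj_invol {t x : G} (ht : orderOf t = 2) (h : IsConj t x) : x * x = 1 := by
  obtain ⟨c, rfl⟩ := isConj_iff.mp h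
  have h1 : t * t = 1 := by
    have := pow_orderOf_eq_one t
    rwa [ht, pow_two] at this
  calc c * t * c⁻¹ * (c * t * c⁻¹) = c * (t * t) * c⁻¹ := by group
    _ = 1 := by rw [h1]; group

end

section

variable {G : Type*} [Group G] [Fintype G] {p : ℕ}

/-- If no conjugate of the involution `t` inverts the `p`-part `z` of `g`, then `g` is not a
product of two conjugates of `t`. -/
theorem conv_classInd_invol_eq_zero (hp : p.Prime) {t : G} (ht : orderOf t = 2) {g z : G}
    (hz : IsPPart p g z) (hinv : ∀ c : G, (c * t * c⁻¹) * z * (c * t * c⁻¹)⁻¹ ≠ z⁻¹) :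
    conv (classInd t) (classInd t) g = 0 := by
  rw [conv_apply]
  refine Finset.sum_eq_zero fun x _ => ?_
  rw [classInd_apply, classInd_apply]
  by_cases h1 : IsConj t x
  · by_cases h2 : IsConj t (x⁻¹ * g)
    · exfalso
      have hx : x * x = 1 := mul_self_of_isConj_invol ht h1
      have hx' : (x⁻¹ * g) * (x⁻¹ * g) = 1 := mul_self_of_isConj_invol ht h2
      have hxinv : x⁻¹ = x := inv_eq_of_mul_eq_one_left hx
      have hg : x * g * x⁻¹ = g⁻¹ := by
        rw [hxinv] at hx' ⊢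
        apply eq_inv_of_mul_eq_one_left
        rw [← hx']
        group
      have h5 := IsPPart.conj hz x
      rw [hg] at h5
      have h4 := IsPPart.unique hp h5 (IsPPart.inv hz)
      obtain ⟨c, rfl⟩ := isConj_iff.mp h1
      exact hinv c h4
    · rw [if_neg h2, mul_zero]
  · rw [if_neg h1, zero_mul]

/-- The inner product of the class function counting products of two conjugates of an
involution with an irreducible character. -/
theorem classInner_conv_classInd_invol {t : G} (ht : orderOf t = 2) (χ : IrrCharacter G) :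
    classInner (conv (classInd t) (classInd t)) (χ : G → ℂ) =
      ((Nat.card G : ℂ)⁻¹ * ((Subgroup.centralizer ({t} : Set G)).index : ℂ) ^ 2) *
        ((χ : G → ℂ) t ^ 2 / (χ : G → ℂ) 1) := by
  obtain ⟨n, hn⟩ := exists_int_of_orderOf_two (IsIrrCharacter.isCharacter χ.2) ht
  have hd := Cfsg.Agent.Lib.Helper24.charDegree_cast (IsIrrCharacter.isCharacter χ.2)
  have h10 := irr_one_ne_zero χ.2
  have h1 := om_conv χ.2 (isClassFunction_classInd t) (isClassFunction_classInd t)
  rw [om_classInd (irr_isClassFunction χ.2)] at h1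
  have h2 : ∑ g, conv (classInd t) (classInd t) g * (χ : G → ℂ) g =
      centralChar (χ : G → ℂ) t * centralChar (χ : G → ℂ) t * (χ : G → ℂ) 1 := by
    rw [← h1, om, div_mul_cancel₀ _ h10]
  have h3 : ∑ g, conv (classInd t) (classInd t) g * conj ((χ : G → ℂ) g) =
      conj (∑ g, conv (classInd t) (classInd t) g * (χ : G → ℂ) g) := by
    rw [map_sum]
    refine Finset.sum_congr rfl fun g _ => ?_
    rw [map_mul, conv_classInd_eq_card, Complex.conj_natCast]
  rw [classInner, h3, h2]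
  unfold centralChar
  rw [hn, ← hd]
  simp only [map_mul, map_div₀, Complex.conj_natCast, map_intCast]
  have hd0 : ((charDegree (χ : G → ℂ) : ℕ) : ℂ) ≠ 0 := by rw [hd]; exact h10
  field_simp

end

section real

/-- The sign pattern lemma behind Brauer's argument. -/
theorem exists_ne_of_at_most_one_pos {ι : Type*} [DecidableEq ι] (S : Finset ι) (a d τ : ι → ℝ)
    (hd : ∀ i ∈ S, 0 < d i) (R1 : ∑ i ∈ S, a i * (τ i ^ 2 / d i) = 0)
    (R2 : ∑ i ∈ S, a i * d i = 0) (R3 : ∑ i ∈ S, a i * τ i = 0)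
    (hpos : ∀ i ∈ S, ∀ j ∈ S, 0 < a i → 0 < a j → i = j)
    {i₁ : ι} (hi₁ : i₁ ∈ S) (ha₁ : a i₁ ≠ 0) (hτ₁ : τ i₁ = d i₁) :
    ∃ i ∈ S, i ≠ i₁ ∧ τ i = d i := by
  -- some coefficient is positive
  obtain ⟨i₀, hi₀, ha₀⟩ : ∃ i ∈ S, 0 < a i := by
    by_contra hcon
    push Not at hcon
    have h1 : ∀ i ∈ S, a i * d i ≤ 0 := fun i hi =>
      mul_nonpos_of_nonpos_of_nonneg (hcon i hi) (hd i hi).le
    have h2 := (Finset.sum_eq_zero_iff_of_nonpos h1).mp R2 i₁ hi₁
    rcases mul_eq_zero.mp h2 with h | h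
    · exact ha₁ h
    · exact (hd i₁ hi₁).ne' h
  have hle : ∀ i ∈ S, i ≠ i₀ → a i ≤ 0 := by
    intro i hi hne
    by_contra hcon
    push Not at hcon
    exact hne (hpos i hi i₀ hi₀ hcon ha₀)
  set s : ℝ := τ i₀ / d i₀ with hs
  have hsum : ∑ i ∈ S, a i * ((τ i - s * d i) ^ 2 / d i) = 0 := by
    have h1 : ∀ i ∈ S, a i * ((τ i - s * d i) ^ 2 / d i) =
        a i * (τ i ^ 2 / d i) - 2 * s * (a i * τ i) + s ^ 2 * (a i * d i) := by
      intro i hi
      have := (hd i hi).ne'
      field_simp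
      ring
    rw [Finset.sum_congr rfl h1, Finset.sum_add_distrib, Finset.sum_sub_distrib, ← Finset.mul_sum,
      ← Finset.mul_sum, R1, R2, R3]
    ring
  have hterm : ∀ i ∈ S, a i * ((τ i - s * d i) ^ 2 / d i) ≤ 0 := by
    intro i hi
    by_cases hne : i = i₀
    · rw [hne, hs, div_mul_cancel₀ _ (hd i₀ hi₀).ne']; simp
    · exact mul_nonpos_of_nonpos_of_nonneg (hle i hi hne)
        (div_nonneg (sq_nonneg _) (hd i hi).le)
  have hzero := (Finset.sum_eq_zero_iff_of_nonpos hterm).mp hsum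
  have hkey : ∀ i ∈ S, a i ≠ 0 → τ i = s * d i := by
    intro i hi hai
    rcases mul_eq_zero.mp (hzero i hi) with h | h
    · exact absurd h hai
    · rcases div_eq_zero_iff.mp h with h | h
      · have := pow_eq_zero_iff (two_ne_zero) |>.mp h
        linarith
      · exact absurd h (hd i hi).ne'
  have hs1 : s = 1 := by
    have h1 := hkey i₁ hi₁ ha₁
    rw [hτ₁] at h1
    have := (hd i₁ hi₁).ne'
    field_simp at h1
    linarith
  by_cases h01 : i₀ = i₁
  · -- another nonzero coefficient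
    obtain ⟨j, hj, hja⟩ : ∃ j ∈ S, j ≠ i₀ ∧ a j ≠ 0 := by
      by_contra hcon
      push Not at hcon
      have h1 : ∑ i ∈ S, a i * d i = a i₀ * d i₀ := by
        apply Finset.sum_eq_single_of_mem i₀ hi₀
        intro j hj hne
        rw [hcon j hj hne, zero_mul]
      rw [R2] at h1
      exact (mul_pos ha₀ (hd i₀ hi₀)).ne h1
    refine ⟨j, hj, by rw [← h01]; exact hja.1, ?_⟩
    rw [hkey j hj hja.2, hs1, one_mul]
  · refine ⟨i₀, hi₀, h01, ?_⟩
    rw [hkey i₀ hi₀ ha₀.ne', hs1, one_mul]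

end real

end Cfsg.Agent.Lib.Helper6
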