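import Mathlib
import Cfsg.Prelude.Def_Blocks
import Cfsg.Agent.Lib.Helper6.PrincipalSection2
import Cfsg.Agent.Lib.Helper6.InvCols
import Cfsg.Agent.Lib.Helper6.NormalIdem

/-!
# Inner products of columns of `p`-elements in the principal block
-/

set_option autoImplicit false

namespace Cfsg.Agent.Lib.Helper6

open Cfsg Cfsg.Agent.Lib.Helper2
open scoped ComplexConjugate Classical

attribute [local instance] irrFintype

section

variable {G : Type*} [Group G] [Fintype G] {M : Ideal AlgInt} {p : ℕ}

theorem irr_central_mul_conj {χ : G → ℂ} (hχ : IsIrrCharacter G χ) {z : G}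
    (hz : z ∈ Subgroup.center G) (y : G) : χ (z * y) * conj (χ (z * y)) = χ y * conj (χ y) := by
  rw [irr_central_mul hχ hz y]
  have h1 := centralChar_pow_of_central hχ hz (orderOf z)
  rw [pow_orderOf_eq_one] at h1
  have h2 : centralChar χ z ^ orderOf z = 1 := by
    have h0 := irr_one_ne_zero hχ
    exact (mul_right_cancel₀ h0 (by rw [one_mul]; exact h1)).symm
  have h3 : ‖centralChar χ z‖ = 1 :=
    Complex.norm_eq_one_of_pow_eq_one h2 (orderOf_pos z).ne'
  have h4 : centralChar χ z * conj (centralChar χ z) = 1 := by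
    rw [Complex.mul_conj, Complex.normSq_eq_norm_sq, h3]; simp
  rw [map_mul]
  calc _ = (centralChar χ z * conj (centralChar χ z)) * (χ y * conj (χ y)) := by ring
    _ = _ := by rw [h4, one_mul]

/-- The inner product of the columns of two `p`-elements in the principal block. -/
theorem sum_principal_pElements [Fact p.Prime] (hM : IsPModular p M) {u v : G}
    (hu : ∃ k : ℕ, orderOf u = p ^ k) (hv : ∃ k : ℕ, orderOf v = p ^ k) :
    ∑ χ : IrrCharacter G, (principalBlock M G).indicator 1 χ *
        ((χ : G → ℂ) v * conj ((χ : G → ℂ) u)) =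
      if IsConj u v then ∑ ψ : IrrCharacter (cen u), (principalBlock M (cen u)).indicator 1 ψ *
        ((ψ : cen u → ℂ) 1 * conj ((ψ : cen u → ℂ) 1)) else 0 := by
  have hp : p.Prime := hM.1
  have := IsPModular.isPrime hM
  by_cases hc : IsConj u v
  · rw [if_pos hc]
    have humem : u ∈ cen u := Subgroup.mem_centralizer_singleton_iff.mpr rfl
    let uH : cen u := ⟨u, humem⟩
    have huc : uH ∈ Subgroup.center (cen u) := by
      rw [Subgroup.mem_center_iff]
      intro g
      apply Subtype.ext
      exact Subgroup.mem_centralizer_singleton_iff.mp g.2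
    have huH : ∃ k : ℕ, orderOf uH = p ^ k := by
      obtain ⟨k, hk⟩ := hu
      exact ⟨k, by rw [← hk]; exact (Subgroup.orderOf_coe uH).symm⟩
    have h1 := sum_principal_column hM hu uH uH rfl (isPPart_self hp huH)
    have h2 : ∀ χ : IrrCharacter G, (χ : G → ℂ) v = (χ : G → ℂ) u := fun χ =>
      (Cfsg.Agent.Lib.Helper6.IsClassFunction.eq_of_isConj (irr_isClassFunction χ.2) hc).symm
    simp_rw [h2]
    rw [show (u : G) = ((uH : cen u) : G) from rfl, h1]
    refine Finset.sum_congr rfl fun ψ _ => ?_
    have h3 := irr_central_mul_conj ψ.2 huc 1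
    rw [mul_one] at h3
    rw [h3]
  · rw [if_neg hc]
    exact block_orthogonality hM isPBlock_principalBlock (isPPart_self hp hv) (isPPart_self hp hu)
      (fun h => hc h.symm)

end

end Cfsg.Agent.Lib.Helper6
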