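import Mathlib
import Cfsg.Prelude.Def_Blocks
import Cfsg.Agent.Lib.Helper6.CentralProd4

/-!
# The `p`-regular rank of a block of `G` and of `G ⧸ D`
-/

set_option autoImplicit false
set_option linter.unusedSectionVars false

namespace Cfsg.Agent.Lib.Helper6

open Cfsg Cfsg.Agent.Lib.Helper2 Cfsg.Agent.Lib.Helper24
open scoped ComplexConjugate Classical

attribute [local instance] irrFintype

section

variable {G : Type*} [Group G] [Fintype G] {p : ℕ} (D : Subgroup G) [D.Normal] [Fintype (G ⧸ D)]
  {M : Ideal AlgInt}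

/-- Inflation followed by restriction to the `p`-regular elements. -/
noncomputable def inflReg (p : ℕ) : (G ⧸ D → ℂ) →ₗ[ℂ] (G → ℂ) :=
  (regL G p).comp (LinearMap.funLeft ℂ ℂ (QuotientGroup.mk : G → G ⧸ D))

theorem inflReg_apply (f : G ⧸ D → ℂ) : inflReg D p f = pRegularPart p (infl D f) := rfl

theorem inflReg_pRegularPart (f : G ⧸ D → ℂ) :
    inflReg D p (pRegularPart p f) = pRegularPart p (infl D f) := by
  rw [inflReg_apply]
  funext x
  by_cases hx : p ∣ orderOf x
  · rw [pRegularPart_of_sing _ hx, pRegularPart_of_sing _ hx]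
  · rw [pRegularPart_of_reg _ hx, pRegularPart_of_reg _ hx, infl_apply, infl_apply,
      pRegularPart_of_reg _ (not_dvd_orderOf_mk D hx)]

/-- The characters of the quotient whose inflation lies in `B`. -/
def deflSet (B : Set (IrrCharacter G)) : Set (IrrCharacter (G ⧸ D)) :=
  {η | (⟨infl D (η : G ⧸ D → ℂ), isIrrCharacter_infl D η.2⟩ : IrrCharacter G) ∈ B}

theorem blockRank_eq_deflSet (hM : IsPModular p M) (hDp : IsPGroup p D) (hreg : RegCent p D)
    {B : Set (IrrCharacter G)} (hB : IsPBlock M B) :
    blockRank p B = blockRank p (deflSet D B) := by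
  set S : Set (G ⧸ D → ℂ) :=
    (fun χ : IrrCharacter (G ⧸ D) => pRegularPart p (χ : G ⧸ D → ℂ)) '' deflSet D B with hS
  have h1 : Submodule.span ℂ ((fun χ : IrrCharacter G => pRegularPart p (χ : G → ℂ)) '' B) =
      (Submodule.span ℂ S).map (inflReg D p) := by
    rw [Submodule.map_span]
    apply le_antisymm
    · rw [Submodule.span_le]
      rintro _ ⟨θ, hθ, rfl⟩
      have h2 : pRegularPart p (θ : G → ℂ) = ∑ η : IrrCharacter G,
          ((Nat.card D : ℂ) * (B.indicator 1 η * (if ∀ n ∈ D, (η : G → ℂ) n = (η : G → ℂ) 1 then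
            classInner (regPart p (θ : G → ℂ)) (η : G → ℂ) else 0))) •
            pRegularPart p (η : G → ℂ) := by
        funext x
        rw [Finset.sum_apply]
        by_cases hx : p ∣ orderOf x
        · rw [pRegularPart_of_sing _ hx, Finset.sum_eq_zero]
          intro η _
          rw [Pi.smul_apply, pRegularPart_of_sing _ hx, smul_zero]
        · rw [pRegularPart_of_reg _ hx, irr_reg_eq_sum hM hDp hreg hB hθ hx, Finset.mul_sum]
          refine Finset.sum_congr rfl fun η _ => ?_
          rw [Pi.smul_apply, pRegularPart_of_reg _ hx, smul_eq_mul]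
          split_ifs <;> ring
      show pRegularPart p (θ : G → ℂ) ∈ _
      rw [h2]
      refine Submodule.sum_mem _ fun η _ => ?_
      by_cases hη : η ∈ B
      · by_cases hk : ∀ n ∈ D, (η : G → ℂ) n = (η : G → ℂ) 1
        · apply Submodule.smul_mem
          apply Submodule.subset_span
          obtain ⟨ψ, hψ, hval⟩ := IsIrrCharacter.deflate D η.2 hk
          have heq : infl D ψ = (η : G → ℂ) := by
            funext g
            exact hval g
          refine ⟨pRegularPart p ψ, ⟨⟨ψ, hψ⟩, ?_, rfl⟩, ?_⟩
          · show (⟨infl D ψ, _⟩ : IrrCharacter G) ∈ B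
            have : (⟨infl D ψ, isIrrCharacter_infl D hψ⟩ : IrrCharacter G) = η := Subtype.ext heq
            rw [this]
            exact hη
          · rw [inflReg_pRegularPart, heq]
        · rw [if_neg hk, mul_zero, mul_zero, zero_smul]
          exact Submodule.zero_mem _
      · rw [Set.indicator_of_notMem hη, zero_mul, mul_zero, zero_smul]
        exact Submodule.zero_mem _
    · rw [Submodule.span_le]
      rintro _ ⟨_, ⟨η, hη, rfl⟩, rfl⟩
      apply Submodule.subset_span
      refine ⟨⟨infl D (η : G ⧸ D → ℂ), isIrrCharacter_infl D η.2⟩, hη, ?_⟩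
      exact (inflReg_pRegularPart D _).symm
  have h3 : ∀ f ∈ Submodule.span ℂ S, pRegularPart p f = f := by
    have h4 : Submodule.span ℂ S ≤ LinearMap.eqLocus (regL (G ⧸ D) p) LinearMap.id := by
      rw [Submodule.span_le]
      rintro _ ⟨η, -, rfl⟩
      exact pRegularPart_idem p _
    intro f hf
    exact h4 hf
  have hinj : Function.Injective ((inflReg D p).domRestrict (Submodule.span ℂ S)) := by
    rw [← LinearMap.ker_eq_bot, LinearMap.ker_eq_bot']
    intro f hf
    apply Subtype.ext
    funext q
    have hf' : inflReg D p (f : G ⧸ D → ℂ) = 0 := hf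
    rw [← h3 f f.2]
    by_cases hq : p ∣ orderOf q
    · rw [pRegularPart_of_sing _ hq]; rfl
    · obtain ⟨x, hx, rfl⟩ := exists_reg_lift D hM.1 hq
      have h5 := congrFun hf' x
      rw [inflReg_apply, pRegularPart_of_reg _ hx] at h5
      rw [pRegularPart_of_reg _ hq]
      exact h5
  rw [blockRank, blockRank, h1, ← LinearMap.range_domRestrict]
  exact LinearMap.finrank_range_of_inj hinj

theorem deflSet_principalBlock (hM : IsPModular p M) (hDp : IsPGroup p D) (hreg : RegCent p D) :
    deflSet D (principalBlock M G) = principalBlock M (G ⧸ D) := by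
  have := IsPModular.isPrime hM
  ext η
  have h1 : infl D (fun _ : G ⧸ D => (1 : ℂ)) = fun _ : G => (1 : ℂ) := rfl
  constructor
  · intro h
    have h2 : SameBlock M (fun _ : G => (1 : ℂ)) (infl D (η : G ⧸ D → ℂ)) := h
    rw [← h1] at h2
    exact sameBlock_of_infl_regCent D hM hDp hreg ⟨fun _ => 1, isIrrCharacter_one⟩ η h2
  · intro h
    have h2 : SameBlock M (fun _ : G ⧸ D => (1 : ℂ)) (η : G ⧸ D → ℂ) := h
    exact sameBlock_infl D isIrrCharacter_one η.2 h2

end

end Cfsg.Agent.Lib.Helper6
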