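import Mathlib
import Cfsg.Prelude.Def_Blocks
import Cfsg.Agent.Lib.Helper6.Cover
import Cfsg.Agent.Lib.Helper6.FirstMain2
import Cfsg.Agent.Lib.Helper6.Vanish
import Cfsg.Agent.Lib.Helper6.Height

/-!
# The sum of the elements of order dividing `p` and blocks of positive defect
-/

set_option autoImplicit false

namespace Cfsg.Agent.Lib.Helper6

open Cfsg Cfsg.Agent.Lib.Helper2
open scoped ComplexConjugate Classical

attribute [local instance] irrFintype

section

variable {G : Type*} [Group G] {M : Ideal AlgInt} {p : ℕ}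

/-- The indicator function of the solutions of `g ^ p = 1`. -/
noncomputable def ePow (p : ℕ) : G → ℂ := fun g => if g ^ p = 1 then 1 else 0

theorem ePow_apply (g : G) : ePow p g = if g ^ p = 1 then 1 else 0 := rfl

theorem isClassFunction_ePow : IsClassFunction G (ePow p) := by
  intro g x
  rw [ePow_apply, ePow_apply, conj_pow]
  refine if_congr ?_ rfl rfl
  constructor
  · intro h
    have : g ^ p = x⁻¹ * (x * g ^ p * x⁻¹) * x := by group
    rw [this, h]; group
  · intro h
    rw [h]; group

theorem memLocalRing_ePow [M.IsPrime] (g : G) : MemLocalRing M (ePow p g) := by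
  rw [ePow_apply]
  split_ifs
  · exact memLocalRing_one
  · exact memLocalRing_zero

/-- The elements of order dividing `p` in the centre. -/
def omegaCenter (p : ℕ) (Q : Type*) [Group Q] : Subgroup Q where
  carrier := {v | v ∈ Subgroup.center Q ∧ v ^ p = 1}
  mul_mem' := by
    rintro a b ⟨ha, ha'⟩ ⟨hb, hb'⟩
    refine ⟨Subgroup.mul_mem _ ha hb, ?_⟩
    have hc : Commute a b := (Subgroup.mem_center_iff.mp ha b).symm
    rw [hc.mul_pow, ha', hb', one_mul]
  one_mem' := ⟨Subgroup.one_mem _, one_pow _⟩
  inv_mem' := by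
    rintro a ⟨ha, ha'⟩
    exact ⟨Subgroup.inv_mem _ ha, by rw [inv_pow, ha', inv_one]⟩

theorem mem_omegaCenter {Q : Type*} [Group Q] {v : Q} :
    v ∈ omegaCenter p Q ↔ v ∈ Subgroup.center Q ∧ v ^ p = 1 := Iff.rfl

theorem dvd_card_omegaCenter {Q : Type*} [Group Q] [Finite Q] [Fact p.Prime] (hQ : IsPGroup p Q)
    [Nontrivial Q] : p ∣ Nat.card (omegaCenter p Q) := by
  have hp : p.Prime := Fact.out
  have hnt : Nontrivial (Subgroup.center Q) := hQ.center_nontrivial
  obtain ⟨i, hi⟩ := IsPGroup.iff_card.mp (hQ.to_subgroup (Subgroup.center Q))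
  have hi0 : i ≠ 0 := by
    rintro rfl
    rw [pow_zero] at hi
    have := Finite.one_lt_card_iff_nontrivial.mpr hnt
    omega
  have hdvd : p ∣ Nat.card (Subgroup.center Q) := by rw [hi]; exact dvd_pow_self p hi0
  obtain ⟨z, hz⟩ := exists_prime_orderOf_dvd_card' p hdvd
  obtain ⟨j, hj⟩ := IsPGroup.iff_card.mp (hQ.to_subgroup (omegaCenter p Q))
  rw [hj]
  apply dvd_pow_self
  rintro rfl
  rw [pow_zero, Subgroup.card_eq_one] at hj
  have hmem : (z : Q) ∈ omegaCenter p Q := by
    refine ⟨z.2, ?_⟩
    have := pow_orderOf_eq_one z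
    rw [hz] at this
    exact congrArg Subtype.val this
  rw [hj, Subgroup.mem_bot] at hmem
  have hz1 : z = 1 := Subtype.ext hmem
  rw [hz1, orderOf_one] at hz
  exact hp.one_lt.ne hz

theorem om_omegaCenter_memLocalIdeal {Q : Type*} [Group Q] [Fintype Q] [Fact p.Prime]
    (hM : IsPModular p M) (hQ : IsPGroup p Q) [Nontrivial Q] {θ : Q → ℂ}
    (hθ : IsIrrCharacter Q θ) :
    MemLocalIdeal M (om θ (fun v => if v ∈ omegaCenter p Q then 1 else 0)) := by
  have := IsPModular.isPrime hM
  have h1 : om θ (fun v => if v ∈ omegaCenter p Q then 1 else 0) =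
      ∑ v : Q, ((if v ∈ omegaCenter p Q then (centralChar θ v - 1) else 0) +
        (if v ∈ omegaCenter p Q then 1 else 0)) := by
    rw [om, Finset.sum_div]
    refine Finset.sum_congr rfl fun v _ => ?_
    by_cases hv : v ∈ omegaCenter p Q
    · simp only [if_pos hv]
      have h2 := centralChar_pow_of_central hθ hv.1 1
      rw [pow_one, pow_one] at h2
      rw [h2]
      have := irr_one_ne_zero hθ
      field_simp
      ring
    · simp only [if_neg hv]
      simp
  rw [h1, Finset.sum_add_distrib]
  refine MemLocalIdeal.add (MemLocalIdeal.sum _ fun v _ => ?_) ?_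
  · by_cases hv : v ∈ omegaCenter p Q
    · rw [if_pos hv]
      apply sub_one_memLocalIdeal_of_pow_eq_one hM (k := 1)
      have h2 := centralChar_pow_of_central hθ hv.1 p
      rw [hv.2] at h2
      have h0 := irr_one_ne_zero hθ
      rw [pow_one]
      have h3 : (centralChar θ v ^ p - 1) * θ 1 = 0 := by rw [sub_mul, ← h2]; ring
      rcases mul_eq_zero.mp h3 with h4 | h4
      · exact sub_eq_zero.mp h4
      · exact absurd h4 h0
    · rw [if_neg hv]
      exact memLocalIdeal_zero
  · rw [sum_ite_mem_subgroup, mul_one]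
    exact (memLocalIdeal_natCast_iff hM _).mpr (dvd_card_omegaCenter hQ)

theorem isPPart_self_of_pow_eq_one (hp : p.Prime) {h : G} (hh : h ^ p = 1) : IsPPart p h h := by
  refine ⟨1, mul_one h, Commute.one_right h, ?_, ?_⟩
  · rcases (Nat.dvd_prime hp).mp (orderOf_dvd_of_pow_eq_one hh) with h1 | h1
    · exact ⟨0, by rw [h1, pow_zero]⟩
    · exact ⟨1, by rw [h1, pow_one]⟩
  · rw [orderOf_one]
    exact hp.one_lt.ne' ∘ Nat.dvd_one.mp

/-- In a block of positive defect, the sum of the solutions of `g ^ p = 1` is in the radical. -/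
theorem om_ePow_memLocalIdeal [Fintype G] [Fact p.Prime] (hM : IsPModular p M)
    {B : Set (IrrCharacter G)} (hB : IsPBlock M B) {D : Subgroup G}
    (hD : IsDefectGroup p M B D) (hne : D ≠ ⊥) {χ : IrrCharacter G} (hχ : χ ∈ B) :
    MemLocalIdeal M (om (χ : G → ℂ) (ePow p)) := by
  have := IsPModular.isPrime hM
  have hp : p.Prime := hM.1
  obtain ⟨b, hb, hDb, hind⟩ := exists_brauer_correspondent hM hB hD
  obtain ⟨g₀, hg₀, hDg₀⟩ := isDefectGroup_iff.mp hD
  have hDp : IsPGroup p D := hDg₀.isPGroup
  obtain ⟨ξ, hξ⟩ := IsPBlock.nonempty hb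
  have h5 := om_brMap_sub_om hM hDp (le_nor D) le_rfl hind hξ hχ (isClassFunction_ePow (p := p))
    (memLocalRing_ePow (p := p))
  apply (memLocalIdeal_congr h5).mp
  have hn : (D.subgroupOf (nor D)).Normal :=
    (Subgroup.normal_subgroupOf_iff_le_normalizer (le_nor D)).mpr le_rfl
  have hp' : IsPGroup p (D.subgroupOf (nor D)) :=
    hDp.of_equiv (Subgroup.subgroupOfEquivOfLe (le_nor D)).symm
  have hbrcl := isClassFunction_brMap (P := D) (H := nor D) le_rfl (isClassFunction_ePow (p := p))
  let z' : nor D → ℂ := fun h =>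
    if h ∈ D.subgroupOf (nor D) then brMap D (nor D) (ePow p) h else 0
  have hz'cl : IsClassFunction (nor D) z' := by
    intro h x
    simp only [z']
    rw [hbrcl]
    refine if_congr ?_ rfl rfl
    constructor
    · intro hx
      have := hn.conj_mem _ hx x⁻¹
      simpa [mul_assoc] using this
    · intro hx
      exact hn.conj_mem _ hx x
  have e1 : om (ξ : nor D → ℂ) (brMap D (nor D) (ePow p)) = om (ξ : nor D → ℂ) z' := by
    rw [om, om]
    congr 1
    refine Finset.sum_congr rfl fun h _ => ?_
    by_cases hh : h ∈ D.subgroupOf (nor D)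
    · simp only [z', if_pos hh]
    · simp only [z', if_neg hh, zero_mul]
      rw [brMap_apply, ePow_apply]
      by_cases h1 : (h : G) ∈ Subgroup.centralizer (D : Set G)
      · by_cases h2 : (h : G) ^ p = 1
        · have h3 : h ^ p = 1 := Subtype.ext h2
          rw [irr_eq_zero_of_pPart_not_mem hM ξ (isPPart_self_of_pow_eq_one hp h3), mul_zero]
          intro D' hD' hzD'
          rw [← IsPBlock.eq_blockOf hb hξ] at hD'
          obtain ⟨n, hn'⟩ := isDefectGroup_exists_conj hM hb hDb hD'
          rw [hn', mem_cj] at hzD'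
          have h7 := hn.conj_mem _ hzD' n
          have h8 : n * (n⁻¹ * h * n) * n⁻¹ = h := by group
          rw [h8] at h7
          exact hh h7
        · rw [if_pos h1, if_neg h2, zero_mul]
      · rw [if_neg h1, zero_mul]
  obtain ⟨θ, hθ⟩ := exists_constituent (D.subgroupOf (nor D)) ξ.2
  rw [e1, om_eq_om_of_constituent (D.subgroupOf (nor D)) hz'cl
    (fun g hg => by simp only [z', if_neg hg]) ξ.2 θ hθ]
  have hnt : Nontrivial (D.subgroupOf (nor D)) := by
    have h1 : Nontrivial D := (Subgroup.nontrivial_iff_ne_bot D).mpr hne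
    exact (Subgroup.subgroupOfEquivOfLe (le_nor D)).toEquiv.nontrivial
  have e2 : (fun v : D.subgroupOf (nor D) => z' (v : nor D)) =
      fun v => if v ∈ omegaCenter p (D.subgroupOf (nor D)) then 1 else 0 := by
    ext v
    simp only [z', if_pos v.2]
    rw [brMap_apply, ePow_apply]
    by_cases hv : v ∈ omegaCenter p (D.subgroupOf (nor D))
    · rw [if_pos hv]
      have h1 : ((v : nor D) : G) ∈ Subgroup.centralizer (D : Set G) := by
        rw [Subgroup.mem_centralizer_iff]
        intro w hw
        have h2 := Subgroup.mem_center_iff.mp hv.1 ⟨⟨w, le_nor D hw⟩, hw⟩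
        exact congrArg (fun u : D.subgroupOf (nor D) => ((u : nor D) : G)) h2
      have h3 : ((v : nor D) : G) ^ p = 1 :=
        congrArg (fun u : D.subgroupOf (nor D) => ((u : nor D) : G)) hv.2
      rw [if_pos h1, if_pos h3]
    · rw [if_neg hv]
      by_cases h1 : ((v : nor D) : G) ∈ Subgroup.centralizer (D : Set G)
      · rw [if_pos h1, if_neg]
        intro h3
        apply hv
        refine ⟨?_, Subtype.ext (Subtype.ext h3)⟩
        rw [Subgroup.mem_center_iff]
        intro w
        apply Subtype.ext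
        apply Subtype.ext
        exact Subgroup.mem_centralizer_iff.mp h1 _ w.2
      · rw [if_neg h1]
  rw [e2]
  exact om_omegaCenter_memLocalIdeal hM hp' θ.2

end

end Cfsg.Agent.Lib.Helper6
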