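import Mathlib
import Cfsg.Prelude.Def_Blocks
import Cfsg.Agent.Lib.Helper6.MinMax
import Cfsg.Agent.Lib.Helper6.CoprimeCent
import Cfsg.Agent.Lib.Helper6.FirstMain2
import Cfsg.Agent.Lib.Helper24.FongReynolds2
import Cfsg.Agent.S4741

/-!
# Counting the blocks of full defect
-/

set_option autoImplicit false
set_option linter.unusedSectionVars false

namespace Cfsg.Agent.Lib.Helper6

open Cfsg Cfsg.Agent.Lib.Helper2
open scoped ComplexConjugate Classical

attribute [local instance] irrFintype

section

variable {K : Type*} [Group K] [Fintype K] {p : ℕ} {M : Ideal AlgInt}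
  (Q : Subgroup K) [Q.Normal]

theorem mem_of_orderOf_pow (hp : p.Prime) (hidx : ¬ p ∣ Q.index) {u : K} {k : ℕ}
    (hu : orderOf u = p ^ k) : u ∈ Q := by
  rw [← QuotientGroup.eq_one_iff, ← orderOf_eq_one_iff]
  have h1 : orderOf (u : K ⧸ Q) ∣ p ^ k := by
    rw [← hu]; exact orderOf_map_dvd (QuotientGroup.mk' Q) u
  have h2 : orderOf (u : K ⧸ Q) ∣ Q.index := by
    rw [Subgroup.index_eq_card]; exact orderOf_dvd_natCard _
  have h3 : Nat.Coprime (p ^ k) Q.index :=
    Nat.Coprime.pow_left _ ((Nat.Prime.coprime_iff_not_dvd hp).mpr hidx)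
  exact Nat.eq_one_of_dvd_coprimes h3 h1 h2

theorem isSylIn_cen_of_normal_sylow [Fact p.Prime] (hQ : IsPGroup p Q) (hidx : ¬ p ∣ Q.index)
    {x : K} (hx : Q ≤ cen x) : IsSylIn p (cen x) Q := by
  have hp : p.Prime := Fact.out
  rw [isSylIn_iff]
  refine ⟨hx, ?_⟩
  obtain ⟨j, hj⟩ := IsPGroup.iff_card.mp hQ
  have h1 : (Nat.card K).factorization p = j := by
    rw [← Q.card_mul_index, hj, Nat.factorization_mul (pow_ne_zero _ hp.ne_zero)
      Subgroup.index_ne_zero_of_finite, Nat.Prime.factorization_pow hp]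
    simp [Nat.factorization_eq_zero_of_not_dvd hidx]
  have h2 : (Nat.card (cen x)).factorization p ≤ j := by
    rw [← h1]
    exact (Nat.factorization_le_iff_dvd Nat.card_pos.ne' Nat.card_pos.ne').mpr
      (Subgroup.card_subgroup_dvd_card _) p
  have h3 : j ≤ (Nat.card (cen x)).factorization p := by
    apply (hp.pow_dvd_iff_le_factorization Nat.card_pos.ne').mp
    rw [← hj]
    exact Subgroup.card_dvd_of_le hx
  rw [hj, le_antisymm h2 h3]

/-- The number of blocks of full defect of a group with a normal Sylow `p`-subgroup. -/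
theorem card_blocks_normal_sylow [Fact p.Prime] (hM : IsPModular p M) (hQ : IsPGroup p Q)
    (hidx : ¬ p ∣ Q.index) :
    Nat.card {b : Set (IrrCharacter K) // IsPBlock M b ∧ IsDefectGroup p M b Q} =
      Nat.card {C : ConjClasses K // ∀ n : K, ConjClasses.mk n = C →
        ¬ p ∣ orderOf n ∧ Q ≤ cen n} := by
  have := IsPModular.isPrime hM
  have hp : p.Prime := hM.1
  apply le_antisymm
  · apply card_blocks_le hM (fun b => IsDefectGroup p M b Q)
    intro B B' hB _ hB' _ χ hχ C hC
    push Not at hC
    obtain ⟨n, hn, hn2⟩ := hC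
    have hconj : IsConj n (Quotient.out C) := by
      rw [← ConjClasses.mk_eq_mk_iff_isConj, hn]
      exact (Quotient.out_eq C).symm
    obtain ⟨t, ht⟩ := isConj_iff.mp hconj
    rw [← ht, isClassFunction_coef _ n t, centralChar_conj (irr_isClassFunction χ.2)]
    by_cases hreg : p ∣ orderOf n
    · rw [coef_indicator_eq_zero hM hB hreg, zero_mul]
      exact memLocalIdeal_zero
    · exact MemLocalIdeal.mul_left (IsPBlock.indicator_mem_ZS hB n)
        (centralChar_memLocalIdeal_of_not_le_cen Q hM hQ χ (hn2 hreg))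
  · set T := {C : ConjClasses K // ∀ n : K, ConjClasses.mk n = C →
        ¬ p ∣ orderOf n ∧ Q ≤ cen n} with hT
    set m := Nat.card T with hm
    let e : T ≃ Fin m := Finite.equivFin T
    let x : Fin m → K := fun i => Quotient.out (e.symm i).1
    have hxmk : ∀ i, ConjClasses.mk (x i) = (e.symm i).1 := fun i => Quotient.out_eq _
    have hxp : ∀ i, ¬ p ∣ orderOf (x i) ∧ Q ≤ cen (x i) := fun i => (e.symm i).2 _ (hxmk i)
    obtain ⟨B, hBinj, hB, -⟩ := Cfsg.Agent.S4741.result p M hM Q x (by
        intro i j hij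
        have h1 : (e.symm i).1 = (e.symm j).1 := by
          rw [← hxmk i, ← hxmk j]
          exact ConjClasses.mk_eq_mk_iff_isConj.mpr hij
        exact e.symm.injective (Subtype.ext h1)) (by
        intro i
        obtain ⟨S, hS⟩ := isSylIn_cen_of_normal_sylow Q hQ hidx (hxp i).2
        exact ⟨S, hS.symm⟩) (by
        intro i j g h hg hh k hk hord
        obtain ⟨s, rfl⟩ := isConj_iff.mp hg
        obtain ⟨t, rfl⟩ := isConj_iff.mp hh
        have hu := mem_of_orderOf_pow Q hp hidx hord
        have hu1 : s * x i * s⁻¹ * (t * x j * t⁻¹)⁻¹ ≠ 1 := by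
          intro h1
          rw [h1, orderOf_one] at hord
          exact (Nat.one_lt_pow hk.ne' hp.one_lt).ne hord
        have h3 : ¬ p ∣ orderOf (t * x j * t⁻¹) := by rw [orderOf_conj_eq]; exact (hxp j).1
        have h4 := dvd_orderOf_mul_of_le_cen Q hp hQ hu hu1 h3 (le_cen_conj Q (hxp j).2 t)
        rw [inv_mul_cancel_right, orderOf_conj_eq] at h4
        exact (hxp i).1 h4)
    have h1 : Function.Injective (fun i : Fin m =>
        (⟨B i, hB i⟩ : {b : Set (IrrCharacter K) // IsPBlock M b ∧ IsDefectGroup p M b Q})) := by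
      intro i j hij
      exact hBinj (congrArg Subtype.val hij)
    have h2 := Nat.card_le_card_of_injective _ h1
    rwa [Nat.card_fin] at h2

end

section first

variable {G : Type*} [Group G] [Fintype G] {p : ℕ} {M : Ideal AlgInt}

/-- The First Main Theorem as an equality of cardinalities. -/
theorem card_blocks_defect_eq_nor [Fact p.Prime] (hM : IsPModular p M) {D : Subgroup G}
    (hD : IsPGroup p D) :
    Nat.card {B : Set (IrrCharacter G) // IsPBlock M B ∧ IsDefectGroup p M B D} =
      Nat.card {b : Set (IrrCharacter (nor D)) // IsPBlock M b ∧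
        IsDefectGroup p M b (D.subgroupOf (nor D))} := by
  have := IsPModular.isPrime hM
  have hex : ∀ b : {b : Set (IrrCharacter (nor D)) // IsPBlock M b ∧
      IsDefectGroup p M b (D.subgroupOf (nor D))},
      ∃ B : Set (IrrCharacter G), IsInducedBlock M (nor D) b.1 B := fun b =>
    inducedBlockDefined_of_le hM hD (le_nor D) (centralizer_le_nor D) le_rfl b.2.1
  choose F hF using hex
  let f : {b : Set (IrrCharacter (nor D)) // IsPBlock M b ∧
      IsDefectGroup p M b (D.subgroupOf (nor D))} →
      {B : Set (IrrCharacter G) // IsPBlock M B ∧ IsDefectGroup p M B D} := fun b =>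
    ⟨F b, (hF b).2.1, isDefectGroup_of_induced_nor hM hD b.2.2 (hF b)⟩
  have hbij : Function.Bijective f := by
    constructor
    · intro b b' hbb
      have h1 : F b = F b' := congrArg Subtype.val hbb
      have h2 := hF b'
      rw [← h1] at h2
      exact (Subtype.ext (brauer_correspondent_unique hM hD b.2.2 (hF b) h2)).symm
    · intro B
      obtain ⟨b, hb, hDb, hind⟩ := exists_brauer_correspondent hM B.2.1 B.2.2
      refine ⟨⟨b, hb, hDb⟩, Subtype.ext ?_⟩
      exact Cfsg.Agent.Lib.Helper24.isInducedBlock_unique (hF ⟨b, hb, hDb⟩) hind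
  exact (Nat.card_congr (Equiv.ofBijective f hbij)).symm

end first

end Cfsg.Agent.Lib.Helper6
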